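import Mathlib
import Cfsg.Agent.H1.PCon
import Cfsg.Agent.BG.OmZ
import Cfsg.Agent.BG.NilpCop
import Cfsg.Agent.H23.NormalRankTwo

set_option autoImplicit false
set_option linter.style.haveILetI false
open Cfsg
open scoped commutatorElement Pointwise

/-! Involution centralizers of characteristic 2: no Sylow-invariant subgroups of odd order. -/

namespace Cfsg.Agent.H1

open FStar H36.PConstr

variable {G : Type*} [Group G] [Finite G]

/-- an odd-order group `Y` normalising the 2-group `Q` and centralising `Q₀ ≤ Q` of index at most 2 centralises `Q`. -/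
theorem le_centralizer_of_index_two {Y Q Q₀ : Subgroup G} (hY : Odd (Nat.card Y)) (hQ : IsPGroup 2 Q)
    (hYQ : Y ≤ Subgroup.normalizer (Q : Set G)) (hQ₀ : Q₀ ≤ Q) (hi : Q₀.relIndex Q ≤ 2)
    (hc : Y ≤ Subgroup.centralizer (Q₀ : Set G)) : Y ≤ Subgroup.centralizer (Q : Set G) := by
  intro y hy
  rw [Subgroup.mem_centralizer_iff]
  intro q hq
  by_cases hq0 : q ∈ Q₀
  · exact Subgroup.mem_centralizer_iff.1 (hc hy) q hq0
  have hi2 : Q₀.relIndex Q = 2 := by
    have h1 : Q₀.relIndex Q ≠ 0 := Subgroup.index_ne_zero_of_finite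
    have h2 : Q₀.relIndex Q ≠ 1 := fun h => hq0 (Subgroup.relIndex_eq_one.1 h hq)
    omega
  have hyq : y * q * y⁻¹ ∈ Q := (Subgroup.mem_normalizer_iff.1 (hYQ hy) q).1 hq
  have hyq0 : y * q * y⁻¹ ∉ Q₀ := by
    intro h
    have h1 := Subgroup.mem_centralizer_iff.1 (hc hy) _ h
    apply hq0
    have h2 : q = y * q * y⁻¹ := by
      have : y⁻¹ * (y * q * y⁻¹ * y) = y⁻¹ * (y * (y * q * y⁻¹)) := by rw [h1]
      calc q = y⁻¹ * (y * q * y⁻¹ * y) := by group
        _ = y⁻¹ * (y * (y * q * y⁻¹)) := this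
        _ = y * q * y⁻¹ := by group
    rw [h2]; exact h
  have hcm : y * q * y⁻¹ * q⁻¹ ∈ Q₀ := by
    have h1 := (Subgroup.mul_mem_iff_of_index_two (H := Q₀.subgroupOf Q) hi2
      (a := ⟨y * q * y⁻¹, hyq⟩) (b := (⟨q, hq⟩ : Q)⁻¹)).2 (by
        rw [Subgroup.mem_subgroupOf, inv_mem_iff, Subgroup.mem_subgroupOf]
        exact iff_of_false hyq0 hq0)
    exact Subgroup.mem_subgroupOf.1 h1
  set c := y * q * y⁻¹ * q⁻¹ with hcdef
  have hyc : c * y = y * c := Subgroup.mem_centralizer_iff.1 (hc hy) c hcm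
  have hpow : ∀ n : ℕ, y ^ n * q * (y ^ n)⁻¹ = c ^ n * q := by
    intro n
    induction n with
    | zero => simp
    | succ n ih =>
      have h1 : y * q * y⁻¹ = c * q := by rw [hcdef]; group
      have h2 : y ^ n * c = c * y ^ n := ((show Commute y c from hyc.symm).pow_left n).eq
      calc y ^ (n + 1) * q * (y ^ (n + 1))⁻¹ = y ^ n * (y * q * y⁻¹) * (y ^ n)⁻¹ := by rw [pow_succ]; group
        _ = (y ^ n * c) * q * (y ^ n)⁻¹ := by rw [h1]; group
        _ = c * (y ^ n * q * (y ^ n)⁻¹) := by rw [h2]; group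
        _ = c ^ (n + 1) * q := by rw [ih, pow_succ']; group
  have hcn : c ^ orderOf y = 1 := by
    have h1 := hpow (orderOf y)
    rw [pow_orderOf_eq_one, inv_one, one_mul, mul_one] at h1
    have h2 : c ^ orderOf y * q = 1 * q := by rw [one_mul]; exact h1.symm
    exact mul_right_cancel h2
  have hodd : Odd (orderOf y) := hY.of_dvd_nat (by
    have := orderOf_dvd_natCard (⟨y, hy⟩ : Y)
    rwa [Subgroup.orderOf_mk] at this)
  obtain ⟨k, hk⟩ := hQ ⟨c, hQ₀ hcm⟩
  have hck : c ^ 2 ^ k = 1 := congrArg Subtype.val hk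
  have h3 : orderOf c = 1 := by
    apply Nat.eq_one_of_dvd_coprimes (a := orderOf y) (b := 2 ^ k)
    · exact (Nat.Coprime.pow_right k (Nat.coprime_two_right.mpr hodd))
    · exact orderOf_dvd_of_pow_eq_one hcn
    · exact orderOf_dvd_of_pow_eq_one hck
  rw [orderOf_eq_one_iff] at h3
  rw [h3] at hcdef
  calc q * y = (y * q * y⁻¹ * q⁻¹)⁻¹ * (y * q) := by group
    _ = y * q := by rw [← hcdef]; group

theorem mem_zpowers_of_order_two {V : Subgroup G} (hV : Nat.card V = 2) : ∃ t : G, orderOf t = 2 ∧ V = Subgroup.zpowers t := by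
  haveI : Fact (Nat.Prime 2) := ⟨Nat.prime_two⟩
  obtain ⟨t, ht⟩ := exists_prime_orderOf_dvd_card' 2 (G := V) (by rw [hV])
  refine ⟨t, by rw [Subgroup.orderOf_coe, ht], ?_⟩
  symm
  apply Subgroup.eq_of_le_of_card_ge
  · rw [Subgroup.zpowers_le]; exact t.2
  · rw [hV, Nat.card_zpowers, Subgroup.orderOf_coe, ht]

/-- an involution of a normal four-subgroup of the 2-group `S` has at most two conjugates in `S`. -/
theorem relIndex_centralizer_le_two {S U : Subgroup G} (hS : IsPGroup 2 S) (hU4 : Nat.card U = 2 ^ 2)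
    (hSU : S ≤ Subgroup.normalizer (U : Set G)) {t : G} (ht : t ∈ U) (ht1 : t ≠ 1) :
    (Subgroup.centralizer ({t} : Set G)).relIndex S ≤ 2 := by
  classical
  set C := (Subgroup.centralizer ({t} : Set G)).subgroupOf S with hC
  have hmem : ∀ s : S, (s : G) * t * (s : G)⁻¹ ∈ U := fun s => (Subgroup.mem_normalizer_iff.1 (hSU s.2) t).1 ht
  have hne : ∀ s : S, (⟨(s : G) * t * (s : G)⁻¹, hmem s⟩ : U) ≠ 1 := by
    intro s h
    apply ht1
    have h1 : (s : G) * t * (s : G)⁻¹ = 1 := congrArg Subtype.val h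
    rw [mul_inv_eq_one, mul_eq_left] at h1
    exact h1
  have hlift : ∀ a b : S, QuotientGroup.leftRel C a b → (⟨⟨(a : G) * t * (a : G)⁻¹, hmem a⟩, hne a⟩ : {x : U // x ≠ 1}) =
      ⟨⟨(b : G) * t * (b : G)⁻¹, hmem b⟩, hne b⟩ := by
    intro a b hab
    rw [QuotientGroup.leftRel_apply, hC, Subgroup.mem_subgroupOf, Subgroup.mem_centralizer_singleton_iff] at hab
    apply Subtype.ext
    apply Subtype.ext
    change (a : G) * t * (a : G)⁻¹ = (b : G) * t * (b : G)⁻¹
    have h1 : ((a : G)⁻¹ * b) * t = t * ((a : G)⁻¹ * b) := hab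
    calc (a : G) * t * (a : G)⁻¹ = a * (t * ((a : G)⁻¹ * b)) * (b : G)⁻¹ := by group
      _ = a * (((a : G)⁻¹ * b) * t) * (b : G)⁻¹ := by rw [h1]
      _ = (b : G) * t * (b : G)⁻¹ := by group
  let f : S ⧸ C → {x : U // x ≠ 1} := Quotient.lift (fun s : S => ⟨⟨(s : G) * t * (s : G)⁻¹, hmem s⟩, hne s⟩) hlift
  have hf : Function.Injective f := by
    intro a b
    induction a using QuotientGroup.induction_on with
    | H a =>
      induction b using QuotientGroup.induction_on with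
      | H b =>
        intro hab
        have h1 : (a : G) * t * (a : G)⁻¹ = (b : G) * t * (b : G)⁻¹ := congrArg (fun x => ((x.1 : U) : G)) hab
        rw [QuotientGroup.eq, hC, Subgroup.mem_subgroupOf, Subgroup.mem_centralizer_singleton_iff]
        change ((a : G)⁻¹ * b) * t = t * ((a : G)⁻¹ * b)
        calc ((a : G)⁻¹ * b) * t = (a : G)⁻¹ * ((b : G) * t * (b : G)⁻¹) * b := by group
          _ = (a : G)⁻¹ * ((a : G) * t * (a : G)⁻¹) * b := by rw [h1]
          _ = t * ((a : G)⁻¹ * b) := by group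
  have hcard : Nat.card {x : U // x ≠ 1} = 3 := by
    haveI := Fintype.ofFinite U
    rw [Nat.card_eq_fintype_card, Fintype.card_subtype_compl, ← Nat.card_eq_fintype_card, hU4]
    simp
  have hle : C.index ≤ 3 := by
    rw [← hcard]
    exact Nat.card_le_card_of_injective f hf
  obtain ⟨n, hn⟩ := IsPGroup.iff_card.1 hS
  have hdvd : C.index ∣ 2 ^ n := by rw [← hn]; exact Subgroup.index_dvd_card C
  obtain ⟨k, -, hk⟩ := (Nat.dvd_prime_pow Nat.prime_two).1 hdvd
  change C.index ≤ 2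
  rw [hk] at hle ⊢
  have hk2 : k ≤ 1 := by
    by_contra hh
    have : 2 ^ 2 ≤ 2 ^ k := Nat.pow_le_pow_right (by norm_num) (by omega)
    omega
  calc 2 ^ k ≤ 2 ^ 1 := Nat.pow_le_pow_right (by norm_num) hk2
    _ = 2 := by norm_num

/-- no Sylow-invariant subgroups of odd order. -/
theorem odd_eq_bot_of_charP_two (S : Sylow 2 G) {U : Subgroup G} (hUe : Cfsg.IsElementaryAbelian 2 U) (hU4 : Nat.card U = 2 ^ 2)
    (hUS : U ≤ (S : Subgroup G)) (hSU : (S : Subgroup G) ≤ Subgroup.normalizer (U : Set G))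
    (h : ∀ t : G, orderOf t = 2 → CharP 2 (Subgroup.centralizer ({t} : Set G))) {X : Subgroup G} (hX : Odd (Nat.card X))
    (hSX : (S : Subgroup G) ≤ Subgroup.normalizer (X : Set G)) : X = ⊥ := by
  haveI : Fact (Nat.Prime 2) := ⟨Nat.prime_two⟩
  by_contra hX1
  obtain ⟨V, hVU, hV2, hXV⟩ := BG.P09.exists_card_prime_inf_centralizer_ne_bot hUe hU4 (hUS.trans hSX)
    (by rw [hU4]; exact Nat.Coprime.pow_left 2 (Nat.coprime_two_left.mpr hX)) hX1
  obtain ⟨t, ht, rfl⟩ := mem_zpowers_of_order_two hV2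
  set H : Subgroup G := Subgroup.centralizer ({t} : Set G) with hH
  have hHz : Subgroup.centralizer ((Subgroup.zpowers t : Subgroup G) : Set G) = H := by
    rw [hH, Subgroup.zpowers_eq_closure, Subgroup.centralizer_closure]
  rw [hHz] at hXV
  set Y := X ⊓ H with hY
  have hYodd : Odd (Nat.card Y) := hX.of_dvd_nat (Subgroup.card_dvd_of_le inf_le_left)
  set S₁ := (S : Subgroup G) ⊓ H with hS₁
  -- `|S : S₁| ≤ 2`
  have htU : t ∈ U := hVU (Subgroup.mem_zpowers t)
  have ht1 : t ≠ 1 := by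
    rintro rfl
    rw [orderOf_one] at ht
    omega
  have hS₁i : H.relIndex (S : Subgroup G) ≤ 2 := relIndex_centralizer_le_two S.isPGroup' hU4 hSU htU ht1
  set Q := (pCore 2 H).map H.subtype with hQ
  have hQp : IsPGroup 2 Q := (Solv.pCore_isPGroup 2).map _
  have hQH : Q ≤ H := Subgroup.map_subtype_le _
  have hHQ : H ≤ Subgroup.normalizer (Q : Set G) := BG.le_normalizer_map_normal H _
  -- `|Q : Q ∩ S₁| ≤ 2`
  have hQi : (Q ⊓ S₁).relIndex Q ≤ 2 := by
    rw [Subgroup.inf_relIndex_left]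
    have hTp : IsPGroup 2 ↥(Q ⊔ S₁) := hQp.to_sup_of_normal_left' (S.isPGroup'.to_le inf_le_left)
      (inf_le_right.trans hHQ)
    obtain ⟨S', hS'⟩ := hTp.exists_le_sylow
    have h1 : Nat.card ↥(Q ⊔ S₁) ≤ Nat.card (S : Subgroup G) := by
      rw [S.card_eq_multiplicity, ← S'.card_eq_multiplicity]
      exact Nat.le_of_dvd Nat.card_pos (Subgroup.card_dvd_of_le hS')
    have h2 : S₁.relIndex Q ≤ S₁.relIndex (Q ⊔ S₁) :=
      Subgroup.relIndex_le_of_le_right le_sup_left Subgroup.index_ne_zero_of_finite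
    have h3 : Nat.card S₁ * S₁.relIndex (Q ⊔ S₁) = Nat.card ↥(Q ⊔ S₁) := by
      rw [← Subgroup.relIndex_bot_left, ← Subgroup.relIndex_bot_left,
        Subgroup.relIndex_mul_relIndex _ _ _ bot_le le_sup_right]
    have h4 : Nat.card S₁ * S₁.relIndex (S : Subgroup G) = Nat.card (S : Subgroup G) := by
      rw [← Subgroup.relIndex_bot_left, ← Subgroup.relIndex_bot_left,
        Subgroup.relIndex_mul_relIndex _ _ _ bot_le inf_le_left]
    have h5 : S₁.relIndex (S : Subgroup G) ≤ 2 := by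
      rw [hS₁, Subgroup.inf_relIndex_left]
      exact hS₁i
    have h6 : Nat.card S₁ * S₁.relIndex (Q ⊔ S₁) ≤ Nat.card S₁ * 2 := by
      rw [h3]
      refine h1.trans ?_
      rw [← h4]
      exact Nat.mul_le_mul_left _ h5
    exact h2.trans (Nat.le_of_mul_le_mul_left h6 Nat.card_pos)
  apply hXV
  have hYQ : Y ≤ Subgroup.normalizer (Q : Set G) := inf_le_right.trans hHQ
  have hYQ1 : Y ⊓ Q = ⊥ := BG.P09.inf_eq_bot_of_coprime (by
    obtain ⟨n, hn⟩ := IsPGroup.iff_card.1 hQp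
    rw [hn]
    exact Nat.Coprime.pow_right n (Nat.coprime_two_right.mpr hYodd))
  have hYS₁ : S₁ ≤ Subgroup.normalizer (Y : Set G) := by
    intro s hs
    have h1 : s ∈ Subgroup.normalizer (X : Set G) := hSX hs.1
    have h2 : s ∈ Subgroup.normalizer (H : Set G) := Subgroup.le_normalizer hs.2
    rw [← BG.P09.conj_smul_eq_iff] at h1 h2 ⊢
    rw [hY, BG.P09.smul_inf, h1, h2]
  have hYc : Y ≤ Subgroup.centralizer ((Q ⊓ S₁ : Subgroup G) : Set G) := by
    intro y hy
    rw [Subgroup.mem_centralizer_iff]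
    rintro q ⟨hq, hqS⟩
    have h1 : y * q * y⁻¹ * q⁻¹ ∈ Q := Q.mul_mem ((Subgroup.mem_normalizer_iff.1 (hYQ hy) q).1 hq) (Q.inv_mem hq)
    have h2 : y * (q * y⁻¹ * q⁻¹) ∈ Y := Y.mul_mem hy ((Subgroup.mem_normalizer_iff.1 (hYS₁ hqS) _).1 (Y.inv_mem hy))
    have h3 : y * q * y⁻¹ * q⁻¹ ∈ Y ⊓ Q := ⟨by
      have e : y * q * y⁻¹ * q⁻¹ = y * (q * y⁻¹ * q⁻¹) := by group
      rw [e]; exact h2, h1⟩
    rw [hYQ1, Subgroup.mem_bot] at h3
    calc q * y = (y * q * y⁻¹ * q⁻¹)⁻¹ * (y * q) := by group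
      _ = y * q := by rw [h3]; group
  have hYC := le_centralizer_of_index_two hYodd hQp hYQ inf_le_left hQi hYc
  have hchar := h t ht
  have hYQ2 : Y ≤ Q := by
    intro y hy
    have h1 : (⟨y, hy.2⟩ : H) ∈ Subgroup.centralizer (pCore 2 H : Set H) := by
      rw [Subgroup.mem_centralizer_iff]
      intro x hx
      exact Subtype.ext (Subgroup.mem_centralizer_iff.1 (hYC hy) x ⟨x, hx, rfl⟩)
    exact ⟨_, hchar h1, rfl⟩
  rw [eq_bot_iff, ← hYQ1]
  exact le_inf le_rfl hYQ2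

end Cfsg.Agent.H1
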