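import Mathlib
import Cfsg.Agent.H1.Basic
import Cfsg.Agent.H1.SylowNumbers
import Cfsg.Agent.S0143

/-!
Groups with a cyclic-by-(cyclic 2-group) subgroup of prime power index are solvable.
-/

set_option autoImplicit false

namespace Cfsg.Agent.H1

open scoped Pointwise
open Cfsg

universe u

/-- cyclic-by-(cyclic 2-group). -/
def CycByTwo (A : Type*) [Group A] : Prop :=
  ∃ (B : Subgroup A) (_ : B.Normal), IsCyclic B ∧ IsCyclic (A ⧸ B) ∧ ∃ r : ℕ,
    Nat.card (A ⧸ B) = 2 ^ r

theorem CycByTwo.of_injective {A A' : Type*} [Group A] [Group A'] [Finite A] (h : CycByTwo A)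
    (f : A' →* A) (hf : Function.Injective f) : CycByTwo A' := by
  obtain ⟨B, hB, hc, hq, r, hr⟩ := h
  have hn : (B.comap f).Normal := inferInstance
  have h1 : Function.Injective (f.subgroupComap B) := by
    intro a b hab
    apply Subtype.ext
    apply hf
    exact congrArg Subtype.val hab
  have h2 : Function.Injective (QuotientGroup.map (B.comap f) B f le_rfl) := by
    rw [← MonoidHom.ker_eq_bot_iff, eq_bot_iff]
    intro x hx
    obtain ⟨y, rfl⟩ := QuotientGroup.mk'_surjective _ x
    rw [MonoidHom.mem_ker] at hx
    have h3 : (QuotientGroup.mk' B) (f y) = 1 := hx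
    rw [← MonoidHom.mem_ker, QuotientGroup.ker_mk'] at h3
    rw [Subgroup.mem_bot, ← MonoidHom.mem_ker, QuotientGroup.ker_mk']
    exact h3
  refine ⟨B.comap f, hn, isCyclic_of_injective (f.subgroupComap B) h1,
    isCyclic_of_injective _ h2, ?_⟩
  have h3 := Subgroup.card_dvd_of_injective _ h2
  rw [hr] at h3
  obtain ⟨k, -, hk⟩ := (Nat.dvd_prime_pow Nat.prime_two).mp h3
  exact ⟨k, hk⟩

theorem CycByTwo.of_surjective {A A' : Type*} [Group A] [Group A'] (h : CycByTwo A)
    (f : A →* A') (hf : Function.Surjective f) : CycByTwo A' := by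
  obtain ⟨B, hB, hc, hq, r, hr⟩ := h
  have hn : (B.map f).Normal := hB.map f hf
  have h1 : Function.Surjective (f.subgroupMap B) := f.subgroupMap_surjective B
  have h2 : Function.Surjective (QuotientGroup.map B (B.map f) f (Subgroup.le_comap_map f B)) := by
    intro x
    obtain ⟨y, rfl⟩ := QuotientGroup.mk'_surjective _ x
    obtain ⟨z, rfl⟩ := hf y
    exact ⟨QuotientGroup.mk' B z, rfl⟩
  refine ⟨B.map f, hn, isCyclic_of_surjective (f.subgroupMap B) h1,
    isCyclic_of_surjective _ h2, ?_⟩
  have h3 := Subgroup.card_dvd_of_surjective _ h2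
  rw [hr] at h3
  obtain ⟨k, -, hk⟩ := (Nat.dvd_prime_pow Nat.prime_two).mp h3
  exact ⟨k, hk⟩

theorem CycByTwo.solvable {A : Type*} [Group A] (h : CycByTwo A) : Group.IsSolvable A := by
  obtain ⟨B, hB, hc, hq, -⟩ := h
  have h1 : Group.IsSolvable B := by
    let _ : CommGroup B := IsCyclic.commGroup
    infer_instance
  have h2 : Group.IsSolvable (A ⧸ B) := by
    let _ : CommGroup (A ⧸ B) := IsCyclic.commGroup
    infer_instance
  exact Group.isSolvable_of_ker_le_range B.subtype (QuotientGroup.mk' B) (by simp)

variable {G : Type*} [Group G]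

theorem relIndex_dvd_index_of_normal_right [Finite G] (A N : Subgroup G) [N.Normal] :
    A.relIndex N ∣ A.index := by
  have h1 := Solv.mul_card_sup_of_normal A N
  have h2 : A.relIndex (A ⊔ N) * Nat.card A = Nat.card (A ⊔ N : Subgroup G) := by
    rw [mul_comm, ← Subgroup.relIndex_bot_left A, ← Subgroup.relIndex_bot_left (A ⊔ N),
      Subgroup.relIndex_mul_relIndex _ _ _ bot_le le_sup_left]
  have h3 := relIndex_mul_card_inf A N
  have h4 : A.relIndex (A ⊔ N) = A.relIndex N := by
    have hA : 0 < Nat.card A := Nat.card_pos
    have hAN : 0 < Nat.card (A ⊓ N : Subgroup G) := Nat.card_pos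
    apply Nat.eq_of_mul_eq_mul_right (Nat.mul_pos hA hAN)
    rw [← mul_assoc, h2, h1, ← h3]; ring
  rw [← h4, ← Subgroup.relIndex_mul_index (le_sup_left : A ≤ A ⊔ N)]
  exact Dvd.intro _ rfl

/-- The simple case. -/
theorem cycByTwo_simple [Finite G] [IsSimpleGroup G] (A : Subgroup G) (hA : CycByTwo A) (p s : ℕ)
    (hp : p.Prime) (hidx : A.index = p ^ s) : Group.IsSolvable G := by
  by_contra hns
  have : Fact p.Prime := ⟨hp⟩
  have hprime : ¬ (Nat.card G).Prime := by
    intro h
    apply hns
    have : Fact (Nat.card G).Prime := ⟨h⟩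
    have hc : IsCyclic G := isCyclic_of_prime_card rfl
    let _ : CommGroup G := IsCyclic.commGroup
    infer_instance
  obtain ⟨B, hB, hBc, hqc, r, hr⟩ := hA
  -- Burnside
  have hburn : ∀ g : G, g ≠ 1 → ∀ q k : ℕ, q.Prime →
      (Subgroup.centralizer ({g} : Set G)).index ∣ q ^ k → False := by
    intro g hg q k hq hdvd
    obtain ⟨j, -, hj⟩ := (Nat.dvd_prime_pow hq).mp hdvd
    exact hprime (S0143.result q j hq g hg hj)
  have hAne : A ≠ ⊥ := by
    intro h
    apply hns
    rw [h, Subgroup.index_bot] at hidx
    have h1 : IsPGroup p G := IsPGroup.of_card hidx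
    have := h1.isNilpotent
    infer_instance
  have hcentA : Subgroup.center A = ⊥ := by
    rw [eq_bot_iff]
    intro z hz
    rw [Subgroup.mem_bot]
    by_contra hz1
    have hz1' : (z : G) ≠ 1 := fun h => hz1 (Subtype.ext h)
    apply hburn z hz1' p s hp
    rw [← hidx]
    apply Subgroup.index_dvd_of_le
    intro a ha
    rw [Subgroup.mem_centralizer_singleton_iff]
    exact congrArg Subtype.val (Subgroup.mem_center_iff.mp hz ⟨a, ha⟩)
  have hBne : B ≠ ⊥ := by
    intro h
    have hcyc : IsCyclic A := by
      have h1 : Function.Injective (QuotientGroup.mk' B) := by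
        rw [← MonoidHom.ker_eq_bot_iff, QuotientGroup.ker_mk', h]
      exact isCyclic_of_injective _ h1
    have h2 : Subgroup.center A = ⊤ := by
      let _ : CommGroup A := IsCyclic.commGroup
      exact CommGroup.center_eq_top
    rw [hcentA] at h2
    have h3 : Subsingleton A := Subgroup.subsingleton_iff.mp (subsingleton_of_bot_eq_top h2)
    exact hAne (Subgroup.eq_bot_of_subsingleton A)
  have hcardA : Nat.card A = Nat.card B * 2 ^ r := by
    rw [← hr, ← Subgroup.index_eq_card, Subgroup.card_mul_index]
  by_cases hp2 : p = 2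
  · subst hp2
    obtain ⟨b, hb⟩ := Subgroup.ne_bot_iff_exists_ne_one.mp hBne
    have hb1 : (((b : A) : G)) ≠ 1 := fun h => hb (Subtype.ext (Subtype.ext h))
    apply hburn _ hb1 2 (r + s) Nat.prime_two
    have h1 : B.map A.subtype ≤ Subgroup.centralizer ({((b : A) : G)} : Set G) := by
      rintro _ ⟨c, hc, rfl⟩
      rw [Subgroup.mem_centralizer_singleton_iff]
      let _ : CommGroup B := IsCyclic.commGroup
      have h2 : (⟨c, hc⟩ : B) * b = b * ⟨c, hc⟩ := mul_comm _ _
      exact congrArg (fun x : B => ((x : A) : G)) h2
    refine (Subgroup.index_dvd_of_le h1).trans ?_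
    have h3 : (B.map A.subtype).index = 2 ^ (r + s) := by
      rw [← Subgroup.relIndex_mul_index (Subgroup.map_subtype_le B), hidx, Subgroup.relIndex,
        Subgroup.subgroupOf, Subgroup.comap_map_eq_self_of_injective A.subtype_injective,
        Subgroup.index_eq_card, hr, pow_add]
    rw [h3]
  · -- `|B|` is odd
    have hodd : ¬ 2 ∣ Nat.card B := by
      intro hdvd
      have : Fact (Nat.Prime 2) := ⟨Nat.prime_two⟩
      obtain ⟨t, ht⟩ := exists_prime_orderOf_dvd_card' (G := B) 2 hdvd
      have htc : (t : A) ∈ Subgroup.center A := by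
        rw [Subgroup.mem_center_iff]
        intro a
        have h1 : a * (t : A) * a⁻¹ ∈ B := hB.conj_mem _ t.2 a
        set t' : B := ⟨a * (t : A) * a⁻¹, h1⟩
        have ht2 : t ^ 2 = 1 := by rw [← ht]; exact pow_orderOf_eq_one t
        have ht1 : t ≠ 1 := by
          intro h; rw [h, orderOf_one] at ht; omega
        have ht2' : t' ^ 2 = 1 := by
          apply Subtype.ext
          change (a * (t : A) * a⁻¹) ^ 2 = 1
          rw [conj_pow]
          have : (t : A) ^ 2 = 1 := congrArg Subtype.val ht2
          rw [this]; group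
        have ht1' : t' ≠ 1 := by
          intro h
          apply ht1
          have h2 : a * (t : A) * a⁻¹ = 1 := congrArg Subtype.val h
          apply Subtype.ext
          have h3 : (t : A) = a⁻¹ * (a * (t : A) * a⁻¹) * a := by group
          rw [h3, h2]; simp
        have heq : t' = t := by
          by_contra hne
          classical
          have : Fintype B := Fintype.ofFinite B
          have h2 := IsCyclic.card_pow_eq_one_le (α := B) (n := 2) (by norm_num)
          have h3 : ({1, t, t'} : Finset B) ⊆ Finset.univ.filter (fun a : B => a ^ 2 = 1) := by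
            intro x hx
            simp only [Finset.mem_insert, Finset.mem_singleton] at hx
            rcases hx with rfl | rfl | rfl <;> simp [ht2, ht2']
          have h4 := Finset.card_le_card h3
          rw [Finset.card_insert_of_notMem (by simp [Ne.symm ht1, Ne.symm ht1']),
            Finset.card_insert_of_notMem (by simp [Ne.symm hne]), Finset.card_singleton] at h4
          omega
        have h5 : a * (t : A) * a⁻¹ = t := congrArg Subtype.val heq
        have h6 : a * (t : A) = (a * (t : A) * a⁻¹) * a := by group
        rw [h6, h5]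
      rw [hcentA, Subgroup.mem_bot] at htc
      have : t = 1 := Subtype.ext htc
      rw [this, orderOf_one] at ht
      omega
    have hr0 : r ≠ 0 := by
      rintro rfl
      rw [pow_zero, ← Subgroup.index_eq_card, Subgroup.index_eq_one] at hr
      have hcyc : IsCyclic A := by
        have h1 : IsCyclic (⊤ : Subgroup A) := hr ▸ hBc
        exact isCyclic_of_surjective (Subgroup.topEquiv (G := A)).toMonoidHom
          (Subgroup.topEquiv (G := A)).surjective
      have h2 : Subgroup.center A = ⊤ := by
        let _ : CommGroup A := IsCyclic.commGroup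
        exact CommGroup.center_eq_top
      rw [hcentA] at h2
      have h3 : Subsingleton A := Subgroup.subsingleton_iff.mp (subsingleton_of_bot_eq_top h2)
      exact hAne (Subgroup.eq_bot_of_subsingleton A)
    have : Fact (Nat.Prime 2) := ⟨Nat.prime_two⟩
    obtain ⟨Q⟩ : Nonempty (Sylow 2 A) := inferInstance
    have hQc : IsCyclic Q := by
      have h1 : Function.Injective ((QuotientGroup.mk' B).comp (Q : Subgroup A).subtype) := by
        rw [← MonoidHom.ker_eq_bot_iff, eq_bot_iff]
        intro x hx
        rw [MonoidHom.mem_ker] at hx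
        have h2 : ((x : A)) ∈ B := by
          have h3 : (QuotientGroup.mk' B) (x : A) = 1 := hx
          rwa [← MonoidHom.mem_ker, QuotientGroup.ker_mk'] at h3
        have h3 : Disjoint B (Q : Subgroup A) := by
          apply Subgroup.disjoint_of_coprime_natCard
          obtain ⟨n, hn⟩ := IsPGroup.iff_card.mp Q.isPGroup'
          rw [hn]
          exact Nat.Coprime.pow_right _ ((Nat.Prime.coprime_iff_not_dvd Nat.prime_two).mpr hodd).symm
        have h4 : (x : A) = 1 := by
          have := Subgroup.disjoint_def.mp h3 h2 x.2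
          exact this
        rw [Subgroup.mem_bot]
        exact Subtype.ext h4
      exact isCyclic_of_injective _ h1
    have hP' : IsPGroup 2 ((Q : Subgroup A).map A.subtype) := Q.isPGroup'.map _
    have hPi : ¬ 2 ∣ ((Q : Subgroup A).map A.subtype).index := by
      rw [← Subgroup.relIndex_mul_index (Subgroup.map_subtype_le (Q : Subgroup A)), hidx]
      intro h
      rcases Nat.prime_two.dvd_mul.mp h with h | h
      · rw [Subgroup.relIndex, Subgroup.subgroupOf, Subgroup.comap_map_eq_self_of_injective
          A.subtype_injective] at h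
        exact Q.not_dvd_index h
      · exact hp2 ((Nat.prime_dvd_prime_iff_eq Nat.prime_two hp).mp
          (Nat.prime_two.dvd_of_dvd_pow h)).symm
    set P : Sylow 2 G := hP'.toSylow hPi
    have hPc : IsCyclic P := by
      have h1 : (P : Subgroup G) = (Q : Subgroup A).map A.subtype := IsPGroup.toSylow_coe _ _
      have h2 : IsCyclic ((Q : Subgroup A).map A.subtype : Subgroup G) :=
        isCyclic_of_surjective (A.subtype.subgroupMap (Q : Subgroup A))
          (A.subtype.subgroupMap_surjective _)
      exact h1 ▸ h2
    have h2G : 2 ∣ Nat.card G := by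
      refine dvd_trans ?_ (Subgroup.card_subgroup_dvd_card A)
      rw [hcardA]
      exact dvd_mul_of_dvd_right (dvd_pow_self 2 hr0) _
    have hmin : (Nat.card G).minFac = 2 := by
      rw [Nat.minFac_eq_two_iff]; exact h2G
    have hcomp := IsCyclic.isComplement' hmin hPc
    set K := (MonoidHom.transferSylow P (hPc.normalizer_le_centralizer hmin)).ker
    have hKn : K.Normal := inferInstance
    rcases hKn.eq_bot_or_eq_top with h | h
    · rw [h, Subgroup.isComplement'_bot_left] at hcomp
      apply hns
      have h2 : IsPGroup 2 G := by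
        have h3 := P.isPGroup'
        rw [hcomp] at h3
        exact h3.of_equiv Subgroup.topEquiv
      have := h2.isNilpotent
      infer_instance
    · rw [h, Subgroup.isComplement'_top_left] at hcomp
      exact P.ne_bot_of_dvd_card h2G hcomp

theorem cycByTwo_solvable (n : ℕ) : ∀ {G : Type u} [Group G] [Finite G] (A : Subgroup G)
    (p s : ℕ), Nat.card G = n → CycByTwo A → p.Prime → A.index = p ^ s → Group.IsSolvable G := by
  induction n using Nat.strong_induction_on with
  | _ n ih =>
    intro G _ _ A p s hn hA hp hidx
    by_cases hnt : Nontrivial G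
    swap
    · rw [not_nontrivial_iff_subsingleton] at hnt
      infer_instance
    by_cases hsimple : IsSimpleGroup G
    · exact cycByTwo_simple A hA p s hp hidx
    · have : ∃ N : Subgroup G, N.Normal ∧ N ≠ ⊥ ∧ N ≠ ⊤ := by
        by_contra hcon
        push Not at hcon
        apply hsimple
        refine { eq_bot_or_eq_top_of_normal := fun N hN => ?_ }
        by_cases hb : N = ⊥
        · exact Or.inl hb
        · exact Or.inr (hcon N hN hb)
      obtain ⟨N, hN, hbot, htop⟩ := this
      have h1 : Group.IsSolvable N := by
        have h2 : (A.subgroupOf N).index ∣ p ^ s := by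
          rw [← hidx]; exact relIndex_dvd_index_of_normal_right A N
        obtain ⟨j, -, hj⟩ := (Nat.dvd_prime_pow hp).mp h2
        refine ih (Nat.card N) ?_ (A.subgroupOf N) p j rfl ?_ hp hj
        · rw [← hn]
          exact lt_of_le_of_ne (Subgroup.card_le_card_group N)
            (fun h => htop ((Subgroup.card_eq_iff_eq_top N).mp h))
        · refine hA.of_injective (N.subtype.subgroupComap A) ?_
          intro a b hab
          apply Subtype.ext
          apply Subtype.ext
          have h5 := congrArg Subtype.val hab
          exact h5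
      have h2 : Group.IsSolvable (G ⧸ N) := by
        have h2 : (A.map (QuotientGroup.mk' N)).index ∣ p ^ s := by
          rw [← hidx]; exact Subgroup.index_map_dvd _ (QuotientGroup.mk'_surjective N)
        obtain ⟨j, -, hj⟩ := (Nat.dvd_prime_pow hp).mp h2
        refine ih (Nat.card (G ⧸ N)) ?_ (A.map (QuotientGroup.mk' N)) p j rfl ?_ hp hj
        · rw [← hn, ← Subgroup.card_mul_index N, ← Subgroup.index_eq_card]
          have h3 : 1 < Nat.card N := by
            have h4 : Nat.card N ≠ 1 := fun h => hbot (Subgroup.card_eq_one.mp h)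
            have h5 : 0 < Nat.card N := Nat.card_pos
            omega
          have h4 : 0 < N.index := Nat.pos_of_ne_zero Subgroup.index_ne_zero_of_finite
          nlinarith
        · exact hA.of_surjective ((QuotientGroup.mk' N).subgroupMap A)
            ((QuotientGroup.mk' N).subgroupMap_surjective A)
      exact Group.isSolvable_of_ker_le_range N.subtype (QuotientGroup.mk' N) (by simp)

end Cfsg.Agent.H1
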